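import Cfsg.Agent.H8.Steiner22
/-!
The block graph and the point-block graph of an S(3, 6, 22).
-/
set_option autoImplicit false
open Cfsg
namespace Cfsg.Agent.H8.SRG
open Cfsg.Agent.H8.Steiner22

variable {α : Type*} [Fintype α] [DecidableEq α]

theorem ncard_block {B : Set (Finset α)} {F : Finset (Finset α)} (hF : (F : Set (Finset α)) = B)
    (S : Set B) (P : Finset α → Prop) [DecidablePred P] (h : ∀ x : B, x ∈ S ↔ P x.1) :
    S.ncard = (F.filter P).card := by
  rw [← Set.ncard_image_of_injective S Subtype.val_injective, ← Set.ncard_coe_finset]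
  congr 1
  ext c
  constructor
  · rintro ⟨x, hx, rfl⟩
    rw [Finset.mem_coe, Finset.mem_filter]
    refine ⟨?_, (h x).1 hx⟩
    rw [← Finset.mem_coe, hF]; exact x.2
  · intro hc
    rw [Finset.mem_coe, Finset.mem_filter] at hc
    have hcB : c ∈ B := by rw [← hF]; exact hc.1
    exact ⟨⟨c, hcB⟩, (h _).2 hc.2, rfl⟩

theorem ncard_option {B : Set (Finset α)} [Finite B] (S : Set (Option (α ⊕ B))) [Decidable (none ∈ S)] :
    S.ncard = (if none ∈ S then 1 else 0) + {a : α | some (Sum.inl a) ∈ S}.ncard +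
      {b : B | some (Sum.inr b) ∈ S}.ncard := by
  have h1 : S = ({x | x = none ∧ none ∈ S} ∪ (fun a => some (Sum.inl a)) '' {a : α | some (Sum.inl a) ∈ S}) ∪
      (fun b => some (Sum.inr b)) '' {b : B | some (Sum.inr b) ∈ S} := by
    ext x
    rcases x with _ | (a | b)
    · simp
    · simp
    · simp
  conv_lhs => rw [h1]
  rw [Set.ncard_union_eq, Set.ncard_union_eq, Set.ncard_image_of_injective, Set.ncard_image_of_injective]
  · congr 2
    split_ifs with h
    · simp [h]
    · simp [h]
  · intro a b h; simpa using h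
  · intro a b h; simpa using h
  · rw [Set.disjoint_left]
    rintro x ⟨rfl, _⟩ ⟨a, _, ha⟩
    simp at ha
  · rw [Set.disjoint_left]
    rintro x (⟨rfl, _⟩ | ⟨a, _, rfl⟩) ⟨b, _, hb⟩
    · simp at hb
    · simp at hb

section
variable {B : Set (Finset α)} (hB : Cfsg.IsSteinerSystem 3 6 B)
include hB

omit [Fintype α] [DecidableEq α] in
theorem block_nonempty {b : Finset α} (hb : b ∈ B) : ¬ Disjoint b b := by
  rw [Finset.disjoint_self_iff_empty]
  intro h
  have := hB.1 b hb
  rw [h] at this
  simp at this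

omit [Fintype α] [DecidableEq α] in
theorem block_adj (b c : B) : (Cfsg.blockGraph B).Adj b c ↔ Disjoint b.1 c.1 := by
  unfold Cfsg.blockGraph
  rw [SimpleGraph.fromRel_adj]
  constructor
  · rintro ⟨_, h | h⟩
    · exact h
    · exact h.symm
  · intro h
    refine ⟨?_, Or.inl h⟩
    rintro rfl
    exact block_nonempty hB b.2 h

omit [Fintype α] [DecidableEq α] in
theorem pb_adj_inr_inr (b c : B) :
    (Cfsg.pointBlockGraph B).Adj (some (Sum.inr b)) (some (Sum.inr c)) ↔ Disjoint b.1 c.1 := by
  unfold Cfsg.pointBlockGraph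
  rw [SimpleGraph.fromRel_adj]
  constructor
  · rintro ⟨_, h | h⟩
    · exact h
    · exact h.symm
  · intro h
    refine ⟨?_, Or.inl h⟩
    intro heq
    have : b = c := by simpa using heq
    subst this
    exact block_nonempty hB b.2 h

omit [Fintype α] [DecidableEq α] hB in
theorem pb_adj_inl_inr (a : α) (b : B) :
    (Cfsg.pointBlockGraph B).Adj (some (Sum.inl a)) (some (Sum.inr b)) ↔ a ∈ b.1 := by
  unfold Cfsg.pointBlockGraph
  rw [SimpleGraph.fromRel_adj]
  simp [Cfsg.pointBlockRel]

omit [Fintype α] [DecidableEq α] hB in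
theorem pb_adj_inr_inl (a : α) (b : B) :
    (Cfsg.pointBlockGraph B).Adj (some (Sum.inr b)) (some (Sum.inl a)) ↔ a ∈ b.1 := by
  rw [SimpleGraph.adj_comm, pb_adj_inl_inr]

omit [Fintype α] [DecidableEq α] hB in
theorem pb_adj_inl_inl (a a' : α) :
    ¬ (Cfsg.pointBlockGraph B).Adj (some (Sum.inl a)) (some (Sum.inl a')) := by
  unfold Cfsg.pointBlockGraph
  rw [SimpleGraph.fromRel_adj]
  simp [Cfsg.pointBlockRel]

omit [Fintype α] [DecidableEq α] hB in
theorem pb_adj_none_inl (a : α) :
    (Cfsg.pointBlockGraph B).Adj none (some (Sum.inl a)) := by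
  unfold Cfsg.pointBlockGraph
  rw [SimpleGraph.fromRel_adj]
  simp [Cfsg.pointBlockRel]

omit [Fintype α] [DecidableEq α] hB in
theorem pb_adj_none_inr (b : B) :
    ¬ (Cfsg.pointBlockGraph B).Adj none (some (Sum.inr b)) := by
  unfold Cfsg.pointBlockGraph
  rw [SimpleGraph.fromRel_adj]
  simp [Cfsg.pointBlockRel]

variable (hα : Fintype.card α = 22)
include hα

theorem block_srg [Fintype B] [DecidableRel (Cfsg.blockGraph B).Adj] :
    (Cfsg.blockGraph B).IsSRGWith 77 16 0 4 := by
  classical
  set F : Finset (Finset α) := B.toFinset with hFdef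
  have hF : (F : Set (Finset α)) = B := Set.coe_toFinset B
  have hBF : Cfsg.IsSteinerSystem 3 6 (F : Set (Finset α)) := by rw [hF]; exact hB
  have mem : ∀ x : B, x.1 ∈ F := fun x => by rw [← Finset.mem_coe, hF]; exact x.2
  constructor
  · rw [← Set.toFinset_card B, ← hFdef]; exact N0 hα hBF
  · intro b
    rw [← SimpleGraph.card_neighborSet_eq_degree, ← Nat.card_eq_fintype_card]
    show ((Cfsg.blockGraph B).neighborSet b).ncard = 16
    rw [ncard_block hF _ (fun c => Disjoint b.1 c) (fun x => by rw [SimpleGraph.mem_neighborSet, block_adj hB])]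
    exact card_disjoint hα hBF (mem b)
  · intro b c hbc
    rw [← Nat.card_eq_fintype_card]
    show ((Cfsg.blockGraph B).commonNeighbors b c).ncard = 0
    rw [block_adj hB] at hbc
    rw [Set.ncard_eq_zero]
    ext d
    simp only [SimpleGraph.mem_commonNeighbors, block_adj hB, Set.mem_empty_iff_false, iff_false, not_and]
    intro h1 h2
    refine no_triple hα hBF (mem b) (mem c) (mem d) hbc h1 ?_ h2
    intro h
    rw [h] at h2
    exact block_nonempty hB d.2 h2
  · intro b c hne hbc
    rw [← Nat.card_eq_fintype_card]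
    show ((Cfsg.blockGraph B).commonNeighbors b c).ncard = 4
    rw [block_adj hB] at hbc
    rw [ncard_block hF _ (fun d => Disjoint b.1 d ∧ Disjoint c.1 d)
      (fun x => by rw [SimpleGraph.mem_commonNeighbors, block_adj hB, block_adj hB])]
    exact card_disjoint_both hα hBF (mem b) (mem c) (fun h => hne (Subtype.ext h)) hbc

theorem pointBlock_srg [Fintype B] [DecidableRel (Cfsg.pointBlockGraph B).Adj] :
    (Cfsg.pointBlockGraph B).IsSRGWith 100 22 0 6 := by
  classical
  set F : Finset (Finset α) := B.toFinset with hFdef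
  have hF : (F : Set (Finset α)) = B := Set.coe_toFinset B
  have hBF : Cfsg.IsSteinerSystem 3 6 (F : Set (Finset α)) := by rw [hF]; exact hB
  have mem : ∀ x : B, x.1 ∈ F := fun x => by rw [← Finset.mem_coe, hF]; exact x.2
  have hsymm : ∀ v w : Option (α ⊕ B), ((Cfsg.pointBlockGraph B).commonNeighbors v w).ncard =
      ((Cfsg.pointBlockGraph B).commonNeighbors w v).ncard := fun v w => by
    rw [SimpleGraph.commonNeighbors_symm]
  constructor
  · rw [Fintype.card_option, Fintype.card_sum, hα, ← Set.toFinset_card B, ← hFdef, N0 hα hBF]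
  · intro v
    rw [← SimpleGraph.card_neighborSet_eq_degree, ← Nat.card_eq_fintype_card]
    show ((Cfsg.pointBlockGraph B).neighborSet v).ncard = 22
    rw [ncard_option]
    rcases v with _ | (a | b)
    · have h1 : {a : α | some (Sum.inl a) ∈ (Cfsg.pointBlockGraph B).neighborSet none} = Set.univ := by
        ext a; simp [SimpleGraph.mem_neighborSet, pb_adj_none_inl]
      have h2 : {b : B | some (Sum.inr b) ∈ (Cfsg.pointBlockGraph B).neighborSet none} = ∅ := by
        ext b; simp [SimpleGraph.mem_neighborSet, pb_adj_none_inr]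
      rw [h1, h2, Set.ncard_univ, Nat.card_eq_fintype_card, hα, Set.ncard_empty, if_neg]
      simp [SimpleGraph.mem_neighborSet]
    · have h1 : {a' : α | some (Sum.inl a') ∈ (Cfsg.pointBlockGraph B).neighborSet (some (Sum.inl a))} = ∅ := by
        ext a; simp [SimpleGraph.mem_neighborSet, pb_adj_inl_inl]
      rw [h1, ncard_block hF _ (fun c => a ∈ c)
        (fun x => by rw [Set.mem_setOf_eq, SimpleGraph.mem_neighborSet, pb_adj_inl_inr]),
        N1 hα hBF, Set.ncard_empty, if_pos]
      rw [SimpleGraph.mem_neighborSet, SimpleGraph.adj_comm]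
      exact pb_adj_none_inl a
    · have h1 : {a' : α | some (Sum.inl a') ∈ (Cfsg.pointBlockGraph B).neighborSet (some (Sum.inr b))} = (b.1 : Set α) := by
        ext a; simp [SimpleGraph.mem_neighborSet, pb_adj_inr_inl]
      rw [h1, ncard_block hF _ (fun c => Disjoint b.1 c)
        (fun x => by rw [Set.mem_setOf_eq, SimpleGraph.mem_neighborSet, pb_adj_inr_inr hB]),
        card_disjoint hα hBF (mem b), Set.ncard_coe_finset, hB.1 _ b.2, if_neg]
      rw [SimpleGraph.mem_neighborSet, SimpleGraph.adj_comm]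
      exact pb_adj_none_inr b
  · intro v w hvw
    rw [← Nat.card_eq_fintype_card]
    show ((Cfsg.pointBlockGraph B).commonNeighbors v w).ncard = 0
    rw [Set.ncard_eq_zero]
    ext u
    simp only [SimpleGraph.mem_commonNeighbors, Set.mem_empty_iff_false, iff_false, not_and]
    intro h1 h2
    -- no triangle
    have noloop : ∀ x, ¬ (Cfsg.pointBlockGraph B).Adj x x := fun x => SimpleGraph.irrefl _
    have hbbb : ∀ b c d : B, Disjoint b.1 c.1 → Disjoint b.1 d.1 → Disjoint c.1 d.1 → False := by
      intro b c d h1 h2 h3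
      refine no_triple hα hBF (mem b) (mem c) (mem d) h1 h2 ?_ h3
      intro h
      rw [h] at h3
      exact block_nonempty hB d.2 h3
    have hpbb : ∀ (a : α) (b c : B), a ∈ b.1 → a ∈ c.1 → Disjoint b.1 c.1 → False := by
      intro a b c h1 h2 h3
      exact Finset.disjoint_left.1 h3 h1 h2
    rcases v with _ | (a | b) <;> rcases w with _ | (a' | b') <;> rcases u with _ | (a'' | b'')
    all_goals first
      | exact noloop _ hvw
      | exact noloop _ h1
      | exact noloop _ h2
      | exact pb_adj_none_inr _ hvw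
      | exact pb_adj_none_inr _ h1
      | exact pb_adj_none_inr _ h2
      | exact pb_adj_none_inr _ hvw.symm
      | exact pb_adj_none_inr _ h1.symm
      | exact pb_adj_none_inr _ h2.symm
      | exact pb_adj_inl_inl _ _ hvw
      | exact pb_adj_inl_inl _ _ h1
      | exact pb_adj_inl_inl _ _ h2
      | exact hbbb b b' b'' ((pb_adj_inr_inr hB _ _).1 hvw) ((pb_adj_inr_inr hB _ _).1 h1) ((pb_adj_inr_inr hB _ _).1 h2)
      | exact hpbb _ _ _ ((pb_adj_inl_inr _ _).1 hvw) ((pb_adj_inl_inr _ _).1 h1) ((pb_adj_inr_inr hB _ _).1 h2)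
      | exact hpbb _ _ _ ((pb_adj_inr_inl _ _).1 hvw) ((pb_adj_inl_inr _ _).1 h2) ((pb_adj_inr_inr hB _ _).1 h1)
      | exact hpbb _ _ _ ((pb_adj_inr_inl _ _).1 h1) ((pb_adj_inr_inl _ _).1 h2) ((pb_adj_inr_inr hB _ _).1 hvw)
  · intro v w hne hvw
    rw [← Nat.card_eq_fintype_card]
    show ((Cfsg.pointBlockGraph B).commonNeighbors v w).ncard = 6
    have hsymm : ∀ v w : Option (α ⊕ B), ((Cfsg.pointBlockGraph B).commonNeighbors v w).ncard =
        ((Cfsg.pointBlockGraph B).commonNeighbors w v).ncard := fun v w => by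
      rw [SimpleGraph.commonNeighbors_symm]
    -- none, block
    have c1 : ∀ b : B, ((Cfsg.pointBlockGraph B).commonNeighbors none (some (Sum.inr b))).ncard = 6 := by
      intro b
      rw [ncard_option]
      have h1 : {a' : α | some (Sum.inl a') ∈ (Cfsg.pointBlockGraph B).commonNeighbors none (some (Sum.inr b))} = (b.1 : Set α) := by
        ext a; simp [SimpleGraph.mem_commonNeighbors, pb_adj_inr_inl, pb_adj_none_inl]
      have h2 : {b' : B | some (Sum.inr b') ∈ (Cfsg.pointBlockGraph B).commonNeighbors none (some (Sum.inr b))} = ∅ := by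
        ext b; simp [SimpleGraph.mem_commonNeighbors, pb_adj_none_inr]
      rw [h1, h2, Set.ncard_empty, Set.ncard_coe_finset, hB.1 _ b.2, if_neg]
      simp [SimpleGraph.mem_commonNeighbors]
    have c2 : ∀ (a : α) (b : B), a ∉ b.1 →
        ((Cfsg.pointBlockGraph B).commonNeighbors (some (Sum.inl a)) (some (Sum.inr b))).ncard = 6 := by
      intro a b hab
      rw [ncard_option]
      have h1 : {a' : α | some (Sum.inl a') ∈ (Cfsg.pointBlockGraph B).commonNeighbors (some (Sum.inl a)) (some (Sum.inr b))} = ∅ := by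
        ext a; simp [SimpleGraph.mem_commonNeighbors, pb_adj_inl_inl]
      rw [h1, ncard_block hF _ (fun c => a ∈ c ∧ Disjoint b.1 c)
        (fun x => by rw [Set.mem_setOf_eq, SimpleGraph.mem_commonNeighbors, pb_adj_inl_inr, pb_adj_inr_inr hB]),
        card_through_disjoint hα hBF (mem b) hab, Set.ncard_empty, if_neg]
      rw [SimpleGraph.mem_commonNeighbors]
      rintro ⟨_, h⟩
      exact pb_adj_none_inr b h.symm
    have c3 : ∀ (a a' : α), a ≠ a' →
        ((Cfsg.pointBlockGraph B).commonNeighbors (some (Sum.inl a)) (some (Sum.inl a'))).ncard = 6 := by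
      intro a a' haa
      rw [ncard_option]
      have h1 : {x : α | some (Sum.inl x) ∈ (Cfsg.pointBlockGraph B).commonNeighbors (some (Sum.inl a)) (some (Sum.inl a'))} = ∅ := by
        ext a; simp [SimpleGraph.mem_commonNeighbors, pb_adj_inl_inl]
      rw [h1, ncard_block hF _ (fun c => a ∈ c ∧ a' ∈ c)
        (fun x => by rw [Set.mem_setOf_eq, SimpleGraph.mem_commonNeighbors, pb_adj_inl_inr, pb_adj_inl_inr]),
        N2 hα hBF haa, Set.ncard_empty, if_pos]
      rw [SimpleGraph.mem_commonNeighbors]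
      exact ⟨(pb_adj_none_inl a).symm, (pb_adj_none_inl a').symm⟩
    have c4 : ∀ (b c : B), b ≠ c → ¬ Disjoint b.1 c.1 →
        ((Cfsg.pointBlockGraph B).commonNeighbors (some (Sum.inr b)) (some (Sum.inr c))).ncard = 6 := by
      intro b c hbc hd
      rw [ncard_option]
      have h1 : {a' : α | some (Sum.inl a') ∈ (Cfsg.pointBlockGraph B).commonNeighbors (some (Sum.inr b)) (some (Sum.inr c))} = ((b.1 ∩ c.1 : Finset α) : Set α) := by
        ext a; simp [SimpleGraph.mem_commonNeighbors, pb_adj_inr_inl]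
      have hbc' : b.1 ≠ c.1 := fun h => hbc (Subtype.ext h)
      have h2 := inter_eq hα hBF (mem b) (mem c) hbc'
      rw [if_neg hd] at h2
      rw [h1, ncard_block hF _ (fun d => Disjoint b.1 d ∧ Disjoint c.1 d)
        (fun x => by rw [Set.mem_setOf_eq, SimpleGraph.mem_commonNeighbors, pb_adj_inr_inr hB, pb_adj_inr_inr hB]),
        card_disjoint_both hα hBF (mem b) (mem c) hbc' hd, Set.ncard_coe_finset, h2, if_neg]
      rw [SimpleGraph.mem_commonNeighbors]
      rintro ⟨h, _⟩
      exact pb_adj_none_inr b h.symm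
    rcases v with _ | (a | b) <;> rcases w with _ | (a' | b')
    · exact absurd rfl hne
    · exact absurd (pb_adj_none_inl a') hvw
    · exact c1 b'
    · exact absurd (pb_adj_none_inl a).symm hvw
    · exact c3 a a' (fun h => hne (by rw [h]))
    · exact c2 a b' (fun h => hvw ((pb_adj_inl_inr a b').2 h))
    · rw [hsymm]; exact c1 b
    · rw [hsymm]; exact c2 a' b (fun h => hvw ((pb_adj_inr_inl a' b).2 h))
    · exact c4 b b' (fun h => hne (by rw [h])) (fun h => hvw ((pb_adj_inr_inr hB b b').2 h))

end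

end Cfsg.Agent.H8.SRG
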