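import Cfsg.Prelude.Def_Sporadic_a
/-!
Counting in a Steiner system S(3, 6, 22).
-/
set_option autoImplicit false
open Cfsg
namespace Cfsg.Agent.H8.Steiner22

variable {α : Type*} [Fintype α] [DecidableEq α]

/-- Double counting: summing `|S ∩ c|` over a family. -/
theorem sum_inter (F : Finset (Finset α)) (S : Finset α) (n : ℕ)
    (h : ∀ a ∈ S, (F.filter fun c => a ∈ c).card = n) : ∑ c ∈ F, (S ∩ c).card = S.card * n :=
  Finset.sum_card_inter h

variable {B : Finset (Finset α)}

section
variable (hα : Fintype.card α = 22) (hB : Cfsg.IsSteinerSystem 3 6 (B : Set (Finset α)))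
include hα hB

omit hα in
theorem card_block {b : Finset α} (hb : b ∈ B) : b.card = 6 := hB.1 b hb

omit hα in
theorem N3 {p q r : α} (hpq : p ≠ q) (hpr : p ≠ r) (hqr : q ≠ r) :
    (B.filter fun c => p ∈ c ∧ q ∈ c ∧ r ∈ c).card = 1 := by
  obtain ⟨b, ⟨hb, hs⟩, huniq⟩ := hB.2 {p, q, r} (by
    rw [Finset.card_insert_of_notMem (by simp [hpq, hpr]), Finset.card_insert_of_notMem (by simp [hqr]),
      Finset.card_singleton])
  rw [Finset.card_eq_one]
  refine ⟨b, ?_⟩
  ext c
  simp only [Finset.mem_filter, Finset.mem_singleton]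
  constructor
  · rintro ⟨hc, h1, h2, h3⟩
    apply huniq
    refine ⟨hc, ?_⟩
    intro x hx
    simp only [Finset.mem_insert, Finset.mem_singleton] at hx
    rcases hx with rfl | rfl | rfl <;> assumption
  · rintro rfl
    exact ⟨hb, hs (by simp), hs (by simp), hs (by simp)⟩

omit hα in
theorem N3' {p q r : α} (hpq : p ≠ q) (hpr : p ≠ r) (hqr : q ≠ r) :
    ((B.filter fun c => p ∈ c ∧ q ∈ c).filter fun c => r ∈ c).card = 1 := by
  rw [Finset.filter_filter]
  have := N3 hB hpq hpr hqr
  rw [← this]
  congr 1
  apply Finset.filter_congr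
  intro c _
  tauto

theorem N2 {p q : α} (hpq : p ≠ q) : (B.filter fun c => p ∈ c ∧ q ∈ c).card = 5 := by
  have h := sum_inter (B.filter fun c => p ∈ c ∧ q ∈ c) (Finset.univ \ {p, q}) 1 (by
    intro a ha
    simp only [Finset.mem_sdiff, Finset.mem_univ, true_and, Finset.mem_insert, Finset.mem_singleton, not_or] at ha
    exact N3' hB hpq (Ne.symm ha.1) (Ne.symm ha.2))
  have hc : (Finset.univ \ {p, q} : Finset α).card = 20 := by
    rw [Finset.card_sdiff_of_subset (Finset.subset_univ _), Finset.card_univ, hα, Finset.card_pair hpq]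
  rw [hc] at h
  have h2 : ∑ c ∈ B.filter (fun c => p ∈ c ∧ q ∈ c), ((Finset.univ \ {p, q}) ∩ c).card =
      ∑ c ∈ B.filter (fun c => p ∈ c ∧ q ∈ c), 4 := by
    apply Finset.sum_congr rfl
    intro c hc
    rw [Finset.mem_filter] at hc
    have : (Finset.univ \ {p, q}) ∩ c = c \ {p, q} := by ext x; simp [and_comm]
    rw [this, Finset.card_sdiff_of_subset, card_block hB hc.1, Finset.card_pair hpq]
    intro x hx
    simp only [Finset.mem_insert, Finset.mem_singleton] at hx
    rcases hx with rfl | rfl
    · exact hc.2.1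
    · exact hc.2.2
  rw [h2, Finset.sum_const, smul_eq_mul] at h
  omega

theorem N1 (p : α) : (B.filter fun c => p ∈ c).card = 21 := by
  have h := sum_inter (B.filter fun c => p ∈ c) (Finset.univ \ {p}) 5 (by
    intro a ha
    simp only [Finset.mem_sdiff, Finset.mem_univ, true_and, Finset.mem_singleton] at ha
    rw [Finset.filter_filter]
    exact N2 hα hB (Ne.symm ha))
  have hc : (Finset.univ \ {p} : Finset α).card = 21 := by
    rw [Finset.card_sdiff_of_subset (Finset.subset_univ _), Finset.card_univ, hα, Finset.card_singleton]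
  rw [hc] at h
  have h2 : ∑ c ∈ B.filter (fun c => p ∈ c), ((Finset.univ \ {p}) ∩ c).card =
      ∑ c ∈ B.filter (fun c => p ∈ c), 5 := by
    apply Finset.sum_congr rfl
    intro c hc
    rw [Finset.mem_filter] at hc
    have : (Finset.univ \ {p}) ∩ c = c \ {p} := by ext x; simp [and_comm]
    rw [this, Finset.card_sdiff_of_subset, card_block hB hc.1, Finset.card_singleton]
    intro x hx
    simp only [Finset.mem_singleton] at hx
    rw [hx]; exact hc.2
  rw [h2, Finset.sum_const, smul_eq_mul] at h
  omega

theorem N0 : B.card = 77 := by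
  have h := sum_inter B Finset.univ 21 (fun a _ => N1 hα hB a)
  rw [Finset.card_univ, hα] at h
  have h2 : ∑ c ∈ B, (Finset.univ ∩ c).card = ∑ c ∈ B, 6 := by
    apply Finset.sum_congr rfl
    intro c hc
    rw [Finset.univ_inter, card_block hB hc]
  rw [h2, Finset.sum_const, smul_eq_mul] at h
  omega

omit hα in
theorem inter_le_two {b c : Finset α} (hb : b ∈ B) (hc : c ∈ B) (hbc : b ≠ c) : (b ∩ c).card ≤ 2 := by
  by_contra hlt
  push Not at hlt
  obtain ⟨s, hs, hcard⟩ := Finset.exists_subset_card_eq (n := 3) (s := b ∩ c) (by omega)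
  obtain ⟨d, _, huniq⟩ := hB.2 s hcard
  have h1 := huniq b ⟨hb, hs.trans Finset.inter_subset_left⟩
  have h2 := huniq c ⟨hc, hs.trans Finset.inter_subset_right⟩
  exact hbc (h1.trans h2.symm)

/-- Two distinct blocks sharing a point share exactly two. -/
theorem inter_eq_two_of_mem {b c : Finset α} (hb : b ∈ B) (hc : c ∈ B) (hbc : b ≠ c) {p : α} (hpb : p ∈ b)
    (hpc : p ∈ c) : (b ∩ c).card = 2 := by
  have key : ∀ d ∈ (B.filter fun c => p ∈ c).erase b, ((b.erase p) ∩ d).card ≤ 1 := by
    intro d hd
    rw [Finset.mem_erase, Finset.mem_filter] at hd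
    have h1 := inter_le_two hB hb hd.2.1 (Ne.symm hd.1)
    have h2 : insert p ((b.erase p) ∩ d) ⊆ b ∩ d := by
      intro x hx
      rw [Finset.mem_insert] at hx
      rcases hx with rfl | hx
      · exact Finset.mem_inter.2 ⟨hpb, hd.2.2⟩
      · rw [Finset.mem_inter, Finset.mem_erase] at hx
        exact Finset.mem_inter.2 ⟨hx.1.2, hx.2⟩
    have h3 := Finset.card_le_card h2
    rw [Finset.card_insert_of_notMem (by simp)] at h3
    omega
  have hsum := sum_inter ((B.filter fun c => p ∈ c).erase b) (b.erase p) 4 (by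
    intro a ha
    rw [Finset.mem_erase] at ha
    have h5 := N2 hα hB (Ne.symm ha.1)
    have : (((B.filter fun c => p ∈ c).erase b).filter fun c => a ∈ c) = (B.filter fun c => p ∈ c ∧ a ∈ c).erase b := by
      ext x; simp only [Finset.mem_filter, Finset.mem_erase]; tauto
    rw [this, Finset.card_erase_of_mem, h5]
    rw [Finset.mem_filter]; exact ⟨hb, hpb, ha.2⟩)
  have hcard : ((B.filter fun c => p ∈ c).erase b).card = 20 := by
    rw [Finset.card_erase_of_mem, N1 hα hB]
    rw [Finset.mem_filter]; exact ⟨hb, hpb⟩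
  have hbp : (b.erase p).card = 5 := by rw [Finset.card_erase_of_mem hpb, card_block hB hb]
  rw [hbp] at hsum
  -- all terms equal 1
  have hall : ∀ d ∈ (B.filter fun c => p ∈ c).erase b, ((b.erase p) ∩ d).card = 1 := by
    have h1 : ∑ d ∈ (B.filter fun c => p ∈ c).erase b, ((b.erase p) ∩ d).card =
        ∑ d ∈ (B.filter fun c => p ∈ c).erase b, 1 := by
      rw [hsum, Finset.sum_const, hcard]; rfl
    exact (Finset.sum_eq_sum_iff_of_le key).1 h1
  have hcmem : c ∈ (B.filter fun c => p ∈ c).erase b := by
    rw [Finset.mem_erase, Finset.mem_filter]; exact ⟨Ne.symm hbc, hc, hpc⟩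
  have h1 := hall c hcmem
  have h2 : insert p ((b.erase p) ∩ c) = b ∩ c := by
    ext x
    simp only [Finset.mem_insert, Finset.mem_inter, Finset.mem_erase]
    constructor
    · rintro (rfl | ⟨⟨_, h⟩, h'⟩)
      · exact ⟨hpb, hpc⟩
      · exact ⟨h, h'⟩
    · rintro ⟨h, h'⟩
      by_cases hx : x = p
      · left; exact hx
      · right; exact ⟨⟨hx, h⟩, h'⟩
  rw [← h2, Finset.card_insert_of_notMem (by simp), h1]

theorem inter_eq {b c : Finset α} (hb : b ∈ B) (hc : c ∈ B) (hbc : b ≠ c) :
    (b ∩ c).card = if Disjoint b c then 0 else 2 := by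
  split_ifs with h
  · rw [Finset.disjoint_iff_inter_eq_empty] at h
    rw [h, Finset.card_empty]
  · rw [Finset.not_disjoint_iff] at h
    obtain ⟨p, hp, hp'⟩ := h
    exact inter_eq_two_of_mem hα hB hb hc hbc hp hp'

/-- Blocks through a point `p ∉ b` disjoint from `b`. -/
theorem card_through_disjoint {b : Finset α} (hb : b ∈ B) {p : α} (hp : p ∉ b) :
    (B.filter fun c => p ∈ c ∧ Disjoint b c).card = 6 := by
  have hsum := sum_inter (B.filter fun c => p ∈ c) b 5 (by
    intro a ha
    rw [Finset.filter_filter]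
    apply N2 hα hB
    rintro rfl; exact hp ha)
  rw [card_block hB hb] at hsum
  have h1 : ∑ c ∈ B.filter (fun c => p ∈ c), (b ∩ c).card =
      ∑ c ∈ B.filter (fun c => p ∈ c), (if Disjoint b c then 0 else 2) := by
    apply Finset.sum_congr rfl
    intro c hc
    rw [Finset.mem_filter] at hc
    apply inter_eq hα hB hb hc.1
    rintro rfl; exact hp hc.2
  rw [h1, ← Finset.sum_filter_add_sum_filter_not (B.filter (fun c => p ∈ c)) (fun c => Disjoint b c)] at hsum
  rw [Finset.sum_congr rfl (g := fun _ => 0) (fun c hc => by rw [if_pos (Finset.mem_filter.1 hc).2]),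
    Finset.sum_const_zero, zero_add,
    Finset.sum_congr rfl (g := fun _ => 2) (fun c hc => by rw [if_neg (Finset.mem_filter.1 hc).2]),
    Finset.sum_const, smul_eq_mul] at hsum
  have h2 := Finset.card_filter_add_card_filter_not (s := B.filter (fun c => p ∈ c)) (fun c => Disjoint b c)
  rw [N1 hα hB] at h2
  rw [Finset.filter_filter] at h2
  omega

theorem card_disjoint {b : Finset α} (hb : b ∈ B) : (B.filter fun c => Disjoint b c).card = 16 := by
  have hsum := sum_inter (B.filter fun c => Disjoint b c) (Finset.univ \ b) 6 (by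
    intro a ha
    rw [Finset.filter_filter]
    have := card_through_disjoint hα hB hb (p := a) (by simpa using ha)
    rw [← this]
    congr 1
    apply Finset.filter_congr
    intro c _; tauto)
  have hc : (Finset.univ \ b : Finset α).card = 16 := by
    rw [Finset.card_sdiff_of_subset (Finset.subset_univ _), Finset.card_univ, hα, card_block hB hb]
  have h1 : ∑ c ∈ B.filter (fun c => Disjoint b c), ((Finset.univ \ b) ∩ c).card =
      ∑ c ∈ B.filter (fun c => Disjoint b c), 6 := by
    apply Finset.sum_congr rfl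
    intro c hc
    rw [Finset.mem_filter] at hc
    have : (Finset.univ \ b) ∩ c = c := by
      rw [Finset.inter_eq_right]
      intro x hx
      rw [Finset.mem_sdiff]
      exact ⟨Finset.mem_univ _, fun h => Finset.disjoint_left.1 hc.2 h hx⟩
    rw [this, card_block hB hc.1]
  rw [h1, hc, Finset.sum_const, smul_eq_mul] at hsum
  omega

/-- No block is disjoint from two disjoint blocks. -/
theorem no_triple {b c d : Finset α} (hb : b ∈ B) (hc : c ∈ B) (hd : d ∈ B) (hbc : Disjoint b c)
    (hbd : Disjoint b d) (hcd : c ≠ d) : ¬ Disjoint c d := by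
  have hsum := sum_inter ((B.filter fun c => Disjoint b c).erase c) c 5 (by
    intro a ha
    have hab : a ∉ b := fun h => Finset.disjoint_left.1 hbc h ha
    have h6 := card_through_disjoint hα hB hb hab
    have : (((B.filter fun c => Disjoint b c).erase c).filter fun x => a ∈ x) =
        (B.filter fun c => a ∈ c ∧ Disjoint b c).erase c := by
      ext x; simp only [Finset.mem_filter, Finset.mem_erase]; tauto
    rw [this, Finset.card_erase_of_mem, h6]
    rw [Finset.mem_filter]; exact ⟨hc, ha, hbc⟩)
  rw [card_block hB hc] at hsum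
  have hcard : ((B.filter fun c => Disjoint b c).erase c).card = 15 := by
    rw [Finset.card_erase_of_mem, card_disjoint hα hB hb]
    rw [Finset.mem_filter]; exact ⟨hc, hbc⟩
  have hle : ∀ x ∈ (B.filter fun c => Disjoint b c).erase c, (c ∩ x).card ≤ 2 := by
    intro x hx
    rw [Finset.mem_erase, Finset.mem_filter] at hx
    exact inter_le_two hB hc hx.2.1 (Ne.symm hx.1)
  have hall : ∀ x ∈ (B.filter fun c => Disjoint b c).erase c, (c ∩ x).card = 2 := by
    have h1 : ∑ x ∈ (B.filter fun c => Disjoint b c).erase c, (c ∩ x).card =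
        ∑ x ∈ (B.filter fun c => Disjoint b c).erase c, 2 := by
      rw [hsum, Finset.sum_const, hcard]; rfl
    exact (Finset.sum_eq_sum_iff_of_le hle).1 h1
  intro hdisj
  have := hall d (by rw [Finset.mem_erase, Finset.mem_filter]; exact ⟨Ne.symm hcd, hd, hbd⟩)
  rw [Finset.disjoint_iff_inter_eq_empty] at hdisj
  rw [hdisj] at this
  simp at this

/-- Four blocks are disjoint from two meeting blocks. -/
theorem card_disjoint_both {b c : Finset α} (hb : b ∈ B) (hc : c ∈ B) (hbc : b ≠ c) (h : ¬ Disjoint b c) :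
    (B.filter fun d => Disjoint b d ∧ Disjoint c d).card = 4 := by
  have hi := inter_eq hα hB hb hc hbc
  rw [if_neg h] at hi
  have hsum := sum_inter (B.filter fun d => Disjoint b d) (c \ b) 6 (by
    intro a ha
    rw [Finset.mem_sdiff] at ha
    rw [Finset.filter_filter]
    have := card_through_disjoint hα hB hb ha.2
    rw [← this]
    congr 1
    apply Finset.filter_congr
    intro c _; tauto)
  have hcard : (c \ b).card = 4 := by
    have := Finset.card_sdiff_add_card_inter c b
    rw [Finset.inter_comm, hi, card_block hB hc] at this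
    omega
  have h1 : ∑ d ∈ B.filter (fun d => Disjoint b d), ((c \ b) ∩ d).card =
      ∑ d ∈ B.filter (fun d => Disjoint b d), (if Disjoint c d then 0 else 2) := by
    apply Finset.sum_congr rfl
    intro d hd
    rw [Finset.mem_filter] at hd
    have h2 : (c \ b) ∩ d = c ∩ d := by
      ext x
      simp only [Finset.mem_inter, Finset.mem_sdiff]
      constructor
      · rintro ⟨⟨h1, _⟩, h3⟩; exact ⟨h1, h3⟩
      · rintro ⟨h1, h3⟩
        exact ⟨⟨h1, fun h => Finset.disjoint_left.1 hd.2 h h3⟩, h3⟩
    rw [h2]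
    apply inter_eq hα hB hc hd.1
    rintro rfl
    exact h hd.2
  rw [h1, hcard, ← Finset.sum_filter_add_sum_filter_not (B.filter (fun d => Disjoint b d)) (fun d => Disjoint c d)] at hsum
  rw [Finset.sum_congr rfl (g := fun _ => 0) (fun c hc => by rw [if_pos (Finset.mem_filter.1 hc).2]),
    Finset.sum_const_zero, zero_add,
    Finset.sum_congr rfl (g := fun _ => 2) (fun c hc => by rw [if_neg (Finset.mem_filter.1 hc).2]),
    Finset.sum_const, smul_eq_mul] at hsum
  have h2 := Finset.card_filter_add_card_filter_not (s := B.filter (fun d => Disjoint b d)) (fun d => Disjoint c d)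
  rw [card_disjoint hα hB hb] at h2
  rw [Finset.filter_filter] at h2
  omega

end

end Cfsg.Agent.H8.Steiner22
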